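import Mathlib
import Cfsg.Agent.Solv.CoprimeSylow
import Cfsg.Agent.PLocal.AmbSyl
import Cfsg.Agent.Grp.MinNormal

/-!
Pairs of idempotents `e, f` with `efe = δe`, `fef = δf`, and a coprime action lemma.
-/

set_option autoImplicit false
set_option linter.unusedSectionVars false

namespace Cfsg.Agent.Class.PronSp

open Subgroup Polynomial Cfsg Cfsg.Agent.PLocal.Amb
open scoped commutatorElement

section Ring

variable {F R : Type*} [Field F] [Ring R] [Algebra F R]

structure Pr (e f : R) (δ : F) : Prop where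
  ee : e * e = e
  ff : f * f = f
  efe : e * (f * e) = δ • e
  fef : f * (e * f) = δ • f

/-- The reflection belonging to an idempotent. -/
def rf (F : Type*) {R : Type*} [Field F] [Ring R] [Algebra F R] (e : R) : R := 1 - (2 : F) • e

namespace Pr

variable {e f : R} {δ : F} (h : Pr e f δ)
include h

theorem ee' (x : R) : e * (e * x) = e * x := by rw [← mul_assoc, h.ee]
theorem ff' (x : R) : f * (f * x) = f * x := by rw [← mul_assoc, h.ff]
theorem efe' (x : R) : e * (f * (e * x)) = δ • (e * x) := by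
  rw [← mul_assoc f, ← mul_assoc, h.efe, smul_mul_assoc]
theorem fef' (x : R) : f * (e * (f * x)) = δ • (f * x) := by
  rw [← mul_assoc e, ← mul_assoc, h.fef, smul_mul_assoc]

theorem poly : aeval (rf F e * rf F f) ((X - 1) * (X ^ 2 - C (4 * δ - 2) * X + 1) : F[X]) = 0 := by
  generalize ht : 4 * δ - 2 = t
  simp only [map_mul, map_sub, map_add, map_one, aeval_X, aeval_C, sq,
    Algebra.algebraMap_eq_smul_one, rf, mul_add, mul_sub, sub_mul, mul_assoc, mul_one, one_mul,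
    smul_mul_assoc, mul_smul_comm, h.ee, h.ff, h.efe, h.fef, h.ee', h.ff']
  subst ht
  module

theorem pow_eq_one {p : ℕ} [Fact p.Prime] [CharP F p] (hp : p ≠ 2)
    (hδ : δ = 0 ∨ δ = 1 ∨ 2 * δ = 1) : (rf F e * rf F f) ^ (4 * p) = 1 := by
  have h3 : 3 ≤ p := by have := (Fact.out : p.Prime).two_le; omega
  have hd : ((X - 1) * (X ^ 2 - C (4 * δ - 2) * X + 1) : F[X]) ∣ X ^ (4 * p) - 1 := by
    rw [pow_mul, ← one_pow p, ← sub_pow_char, one_pow]
    refine dvd_trans ?_ (pow_dvd_pow _ h3)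
    rcases hδ with rfl | rfl | e
    · refine ⟨(X - 1) ^ 2 * (X + 1) * (X ^ 2 + 1) ^ 3, ?_⟩
      rw [show (4 * 0 - 2 : F) = -2 by ring, C_neg, show C (2 : F) = 2 from rfl]; ring
    · refine ⟨(X + 1) ^ 3 * (X ^ 2 + 1) ^ 3, ?_⟩
      rw [show (4 * 1 - 2 : F) = 2 by ring, show C (2 : F) = 2 from rfl]; ring
    · refine ⟨(X - 1) ^ 2 * (X + 1) ^ 3 * (X ^ 2 + 1) ^ 2, ?_⟩
      rw [show (4 * δ - 2 : F) = 0 by linear_combination 2 * e, C_0]; ring
  obtain ⟨g, hg⟩ := hd
  have := congrArg (aeval (rf F e * rf F f)) hg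
  rwa [map_mul, h.poly, zero_mul, map_sub, map_pow, aeval_X, map_one, sub_eq_zero] at this

theorem cases_of_pow {p n : ℕ} [Fact p.Prime] [CharP F p] (h2 : (2 : F) ≠ 0)
    (hx : (rf F e * rf F f) ^ (4 * p ^ n) = 1) :
    δ = 0 ∨ δ = 1 ∨ 2 * δ = 1 ∨ rf F e * rf F f = 1 := by
  by_contra! hn
  obtain ⟨h0, h1, h3, h4⟩ := hn
  set t := 4 * δ - 2 with ht
  have t0 : t ≠ 0 := fun e => h3 (mul_left_cancel₀ h2 (by linear_combination e))
  have t2 : 4 - t ^ 2 ≠ 0 := by
    rw [show 4 - t ^ 2 = 2 ^ 4 * (δ * (1 - δ)) by rw [ht]; ring]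
    exact mul_ne_zero (pow_ne_zero _ h2) (mul_ne_zero h0 (sub_ne_zero.2 h1.symm))
  have hc : IsCoprime (X ^ 2 - C t * X + 1 : F[X]) (X ^ (4 * p ^ n) - 1) := by
    rw [pow_mul, ← one_pow (p ^ n), ← sub_pow_char_pow, one_pow]
    refine IsCoprime.pow_right ?_
    rw [show (X ^ 4 - 1 : F[X]) = (X ^ 2 - 1) * (X ^ 2 + 1) by ring]
    refine IsCoprime.mul_right ⟨C (4 - t ^ 2)⁻¹ * (C t * X + 2),
      C (4 - t ^ 2)⁻¹ * (-C t * X + C t ^ 2 - 2), ?_⟩ ⟨C t⁻¹ * X, C t⁻¹ * (C t - X), ?_⟩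
    · have : C (4 - t ^ 2)⁻¹ * (4 - C t ^ 2 : F[X]) = 1 := by
        rw [show (4 - C t ^ 2 : F[X]) = C (4 - t ^ 2) by simp; rfl, ← C_mul, inv_mul_cancel₀ t2, C_1]
      linear_combination this
    · have : C t⁻¹ * (C t : F[X]) = 1 := by rw [← C_mul, inv_mul_cancel₀ t0, C_1]
      linear_combination this
  obtain ⟨u, v, huv⟩ := hc
  have := congrArg (aeval (rf F e * rf F f)) (show (X - 1 : F[X]) =
    u * ((X - 1) * (X ^ 2 - C t * X + 1)) + v * (X - 1) * (X ^ (4 * p ^ n) - 1) by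
      linear_combination (1 - X) * huv)
  rw [map_add, map_mul, h.poly, map_mul, map_sub _ (X ^ _), map_pow, aeval_X, hx, map_one,
    sub_self, mul_zero, mul_zero, add_zero, map_sub, aeval_X, map_one, sub_eq_zero] at this
  exact h4 this

theorem cases_of_comm (h2 : (2 : F) ≠ 0) (he : e ≠ 0) {I γ : R} (eI : e * I = I) (Ie : I * e = I)
    (II : I * I = -e) (hγ : e * γ = γ * e) (H : rf F e * rf F f *
      ((1 - e + I) * (rf F e * rf F f) * (1 - e - I)) =
      γ * ((1 - e + I) * (rf F e * rf F f) * (1 - e - I) * (rf F e * rf F f))) :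
    δ = 0 ∨ δ = 1 ∨ 2 * δ = 1 := by
  by_contra! hn
  obtain ⟨h0, h1, h3⟩ := hn
  have eI' : ∀ x, e * (I * x) = I * x := fun x => by rw [← mul_assoc, eI]
  have Ie' : ∀ x, I * (e * x) = I * x := fun x => by rw [← mul_assoc, Ie]
  have efI : e * (f * I) = δ • I := by rw [← eI, h.efe', eI]
  have efI' : ∀ x, e * (f * (I * x)) = δ • (I * x) := fun x => by rw [← eI', h.efe', eI']
  have Ife : I * (f * e) = δ • I := by rw [← Ie', h.efe, mul_smul_comm, Ie]
  have IfI : I * (f * I) = -(δ • e) := by rw [← Ie', efI, mul_smul_comm, II, smul_neg]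
  set x := rf F e * rf F f with hx
  set y := (1 - e + I) * x * (1 - e - I) with hy
  have k : e * (x * y) * ((1 - e) * (f * (e - I))) = (4 * (2 * δ - 1) * (δ * (1 - δ))) • e ∧
      e * (y * x) * ((1 - e) * (f * (e - I))) = (4 * (2 * δ - 1) * (δ * (1 - δ))) • e ∧
      e * (x * y) * e - e * (y * x) * e = (2 ^ 3 * (δ * (1 - δ))) • I := by
    refine ⟨?_, ?_, ?_⟩ <;>
    · simp only [hx, hy, rf, mul_add, add_mul, mul_sub, sub_mul, mul_assoc, mul_one, one_mul,
        smul_mul_assoc, mul_smul_comm, h.ee, h.ff, h.efe, h.fef, h.ee', h.ff',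
        eI, Ie, II, eI', Ie', efI, efI', Ife, IfI, mul_neg, neg_mul]
      module
  obtain ⟨k1, k2, k3⟩ := k
  have d : δ * (1 - δ) ≠ 0 := mul_ne_zero h0 (sub_ne_zero.2 h1.symm)
  rw [H, ← mul_assoc e, hγ, mul_assoc γ, mul_assoc γ] at k1 k3
  rw [k2, mul_smul_comm] at k1
  have k4 := smul_right_injective _ (mul_ne_zero (mul_ne_zero (by
    rw [show (4 : F) = 2 * 2 by norm_num]; exact mul_ne_zero h2 h2) (sub_ne_zero.2 h3)) d) k1
  rw [mul_assoc e, ← mul_assoc γ, k4, sub_self, eq_comm, smul_eq_zero] at k3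
  rcases k3 with k3 | k3
  · exact mul_ne_zero (pow_ne_zero _ h2) d k3
  · rw [k3, mul_zero, eq_comm, neg_eq_zero] at II
    exact he II

theorem cases_of_commute (h2 : (2 : F) ≠ 0) (he : e ≠ 0)
    (H : rf F e * rf F f = rf F f * rf F e) : (δ = 0 ∧ e * f = 0 ∧ f * e = 0) ∨ (δ = 1 ∧ f = e) := by
  have k : e * f = f * e := by
    refine smul_right_injective _ (mul_ne_zero h2 h2) ?_
    simp only [rf, mul_sub, sub_mul, mul_one, one_mul, smul_mul_assoc, mul_smul_comm] at H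
    linear_combination (norm := module) H
  have k1 : e * f = δ • e := by rw [← h.efe, ← k, h.ee']
  have k2 : e * f = δ • f := by rw [← h.fef, k, h.ff']
  have k3 : (δ * (δ - 1)) • e = 0 := by
    have : e * f * f = e * f := by rw [mul_assoc, h.ff]
    rw [k1, smul_mul_assoc, k1] at this
    linear_combination (norm := module) this
  rcases mul_eq_zero.1 ((smul_eq_zero.1 k3).resolve_right he) with e0 | e0
  · exact .inl ⟨e0, by rw [k1, e0, zero_smul], by rw [← k, k1, e0, zero_smul]⟩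
  · rw [sub_eq_zero] at e0
    exact .inr ⟨e0, by rw [← one_smul F f, ← e0, ← k2, k1, e0, one_smul]⟩

end Pr

end Ring

section Grp

variable {X : Type*} [Group X] [Finite X]

theorem pow_eq_one_of_inverted {O A : Subgroup X} [O.Normal] (hO : Odd (Nat.card O))
    (hA : IsPGroup 2 A) {z i : X} (hz : z ∈ A) (hi : i ∈ A) {p : ℕ} (hp : p.Prime)
    (H : ∀ y ∈ O, Commute z ⁅⁅z, y⁆, i * ⁅z, y⁆ * i⁻¹⁆ → ⁅z, y⁆ ^ (4 * p) = 1) {x : X}
    (hx : x ∈ O) (hzx : z * x * z⁻¹ = x⁻¹) : ∃ n, x ^ p ^ n = 1 := by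
  have key : ∀ r : ℕ, r.Prime → r ≠ p → r ≠ 2 → ∀ n, ∀ R ≤ O, Nat.card R = n → IsPGroup r R →
      A ≤ 𝐍[R] → ∀ y ∈ R, Commute z y := by
    intro r hr hrp hr2 n
    have := Fact.mk hr
    induction n using Nat.strong_induction_on with
    | _ n ih =>
    intro R hR hn hP hAR y hy
    by_cases hb : R = ⊥
    · rw [hb, mem_bot] at hy; simp [hy]
    have hlt : ⁅R, R⁆ < R := by
      have := hP.isNilpotent
      have := (nontrivial_iff_ne_bot R).2 hb
      have := Group.IsSolvable.commutator_lt_top_of_nontrivial R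
      rwa [← map_subtype_lt_map_subtype, map_subtype_commutator, ← MonoidHom.range_eq_map,
        range_subtype] at this
    have c := fun a ha y => (mem_normalizer_iff.1 (hAR (x := a) ha) y).1
    have h1 : ⁅z, y⁆ ∈ R := mul_mem (c z hz y hy) (inv_mem hy)
    have := H y (hR hy) (ih _ (hn ▸ Grp.card_lt_of_lt hlt) _ (hlt.le.trans hR) rfl (hP.to_le hlt.le)
      (fun a ha => Solv.le_normalizer_commutator hAR hAR ha) _
      (commutator_mem_commutator h1 (c i hi _ h1)))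
    obtain ⟨k, hk⟩ := hP ⟨_, h1⟩
    rw [← commutatorElement_eq_one_iff_commute, ← orderOf_eq_one_iff]
    refine Nat.eq_one_of_dvd_coprimes (Nat.Coprime.pow_left k (Nat.Coprime.mul_right
      (Nat.Coprime.pow_right 2 ((Nat.coprime_primes hr Nat.prime_two).2 hr2))
      ((Nat.coprime_primes hr hp).2 hrp))) (orderOf_dvd_of_pow_eq_one (congrArg Subtype.val hk))
      (orderOf_dvd_of_pow_eq_one this)
  obtain ⟨n, m, hm, e⟩ := Nat.exists_eq_pow_mul_and_not_dvd (orderOf_pos x).ne' p hp.ne_one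
  refine ⟨n, ?_⟩
  by_contra hne
  obtain ⟨r, hr, k, rfl⟩ := Nat.exists_prime_and_dvd (n := m) (by
    rintro rfl; exact hne (by rw [← mul_one (p ^ n), ← e, pow_orderOf_eq_one]))
  have := Fact.mk hr
  have ho : Odd (orderOf x) := Odd.of_dvd_nat hO (O.orderOf_dvd_natCard hx)
  have hr2 : r ≠ 2 := by
    rintro rfl
    exact ho.not_two_dvd_nat (e ▸ dvd_mul_of_dvd_right (dvd_mul_right _ _) _)
  set w := x ^ (p ^ n * k) with hw
  have hwr : orderOf w = r := by
    have hk : 0 < p ^ n * k := Nat.pos_of_ne_zero fun h0 => (orderOf_pos x).ne' (by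
      rw [e, mul_left_comm, h0, mul_zero])
    rw [hw, orderOf_pow_of_dvd hk.ne' (e ▸ ⟨r, by ring⟩), e, mul_left_comm, Nat.mul_div_cancel _ hk]
  have hzw : z * w * z⁻¹ = w⁻¹ := by rw [hw, ← conj_pow, hzx, inv_pow]
  have cop : ∀ B ≤ A, (Nat.card B).Coprime (Nat.card O) := fun B hB => by
    obtain ⟨j, hj⟩ := (hA.to_le hB).exists_card_eq
    rw [hj]; exact (Nat.coprime_two_left.2 hO).pow_left j
  have hzA : zpowers z ≤ A := zpowers_le.2 hz
  have s1 : Group.IsSolvable A := by have := hA.isNilpotent; infer_instance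
  obtain ⟨P, hP⟩ := Solv.exists_invariant_sylow A O le_normalizer_of_normal (cop A le_rfl)
    (.inl s1) r
  obtain ⟨Q, hQ1, hQ⟩ := Solv.exists_invariant_sylow_ge (zpowers z) O le_normalizer_of_normal
    (cop _ hzA) (.inl inferInstance) r (zpowers w) (zpowers_le.2 (pow_mem hx _))
    (IsPGroup.of_card (n := 1) (by rw [Nat.card_zpowers, hwr, pow_one]))
    (zpowers_le.2 (mem_normalizer_fintype (by
      rintro _ ⟨j, rfl⟩
      rw [← conj_zpow, hzw]; exact zpow_mem (inv_mem (mem_zpowers w)) j)))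
  obtain ⟨c, hc, rfl⟩ := Solv.invariant_sylow_conj (zpowers z) O le_normalizer_of_normal
    (cop _ hzA) (.inl inferInstance) r P Q (hzA.trans hP) hQ
  obtain ⟨_, ⟨v, hv, rfl⟩, hvw⟩ := hQ1 (mem_zpowers w)
  have h1 := key r hr (by rintro rfl; exact hm (dvd_mul_right _ _)) hr2 _ _ (map_subtype_le _) rfl
    (P.isPGroup'.map _) hP v (mem_map_of_mem _ hv)
  have h2 : Commute z c := hc z (mem_zpowers z)
  have h3 : Commute z w := by
    rw [← hvw]
    exact (h2.mul_right h1).mul_right h2.inv_right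
  rw [h3.eq, mul_inv_cancel_right, eq_inv_iff_mul_eq_one, ← sq] at hzw
  exact hr2 ((Nat.prime_dvd_prime_iff_eq hr Nat.prime_two).1 (hwr ▸ orderOf_dvd_of_pow_eq_one hzw))

end Grp

end Cfsg.Agent.Class.PronSp
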